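import Cfsg.Agent.H419.EP.Big
import Cfsg.Agent.H528.EP.UB3

/-!
# S3499-V: contradictions in the situation `Big` from the order of `Aut (socle)` (helper414)

* `ord_ge` : `a ^ (m (m - 1) / 2) ≤ 8 |Q|` for `a ≤ |F|`, `m ≤ n`;
* `noAb`, `card_dvd_aut` : the hypotheses of the bounds UB;
* `kill` : the exact form with the factorisation of `|Aut T|` (`ubQ`, `galSum`);
* `three_le_card`, `four_le_card` : the size of `F` from its characteristic.
-/

set_option autoImplicit false

namespace Cfsg.Agent.H414.EPV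

open Subgroup Cfsg Cfsg.Agent.H284 Cfsg.Agent.H419.EP Cfsg.Agent.H59.EP Cfsg.Agent.H528.EP
open scoped MatrixGroups

variable {Q : Type} [Group Q] [Finite Q] {A : Subgroup Q} {Γ : Subgroup (MulAut Q)} {ι : Type} [Fintype ι]
    [DecidableEq ι] {F : Type} [Field F] [Fintype F] {S P : Subgroup (GL ι F)}

theorem ord_ge (b : Big A Γ S P) {a m : ℕ} (ha : 1 ≤ a) (haF : a ≤ Fintype.card F) (hm : m ≤ Fintype.card ι) :
    a ^ (m * (m - 1) / 2) ≤ 8 * Nat.card Q := by
  refine le_trans ?_ b.ord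
  refine (Nat.pow_le_pow_right ha ?_).trans (Nat.pow_le_pow_left haF _)
  apply Nat.div_le_div_right
  exact Nat.mul_le_mul hm (by omega)

theorem simple_of (b : Big A Γ S P) {T : Type} [Group T] (e : socle P ≃* T) : IsSimpleGroup T := by
  have := b.core.simple
  exact e.symm.isSimpleGroup

theorem noncomm_of (b : Big A Γ S P) {T : Type} [Group T] (e : socle P ≃* T) : ¬ ∀ x y : T, x * y = y * x := by
  intro h
  apply b.core.nonabelian
  exact ⟨⟨fun x y => e.injective (by rw [map_mul, map_mul]; exact h _ _)⟩⟩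

theorem noAb (b : Big A Γ S P) : ∀ K : Subgroup Q, K ≤ A → (∀ a ∈ A, ∀ k ∈ K, a * k * a⁻¹ ∈ K) →
    (∀ a ∈ K, ∀ b ∈ K, a * b = b * a) → K = ⊥ := fun _ h1 h2 h3 =>
  b.hasSoc.no_abelian b.core.simple (noncomm_of b (MulEquiv.refl _)) h1 h2 h3

theorem card_dvd_aut (b : Big A Γ S P) {T : Type} [Group T] (e : socle P ≃* T) :
    Nat.card A ∣ Nat.card (MulAut T) := by
  obtain ⟨f, hf⟩ := (b.hasSoc' e).exists_hom
  exact Subgroup.card_dvd_of_injective f hf

/-- **the bound with the exact order of `Aut T`**, factorised as `l` -/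
theorem kill (b : Big A Γ S P) (hg : TwoGen.{0}) {T : Type} [Group T] (e : socle P ≃* T) {N : ℕ}
    (hN : Nat.card (MulAut T) = N) (l : List (ℕ × ℕ)) (h1 : ∀ x ∈ l, x.1.Prime ∧ 0 < x.2)
    (h2 : (l.map Prod.fst).Nodup) (hl : (l.map fun x => x.1 ^ x.2).prod = N) (h60 : N < 60 ^ 60)
    {a m : ℕ} (ha : 1 ≤ a) (haF : a ≤ Fintype.card F) (hm : m ≤ Fintype.card ι)
    (hlt : 8 * ubQ N (l.map fun x => gal x.1 x.2).sum < a ^ (m * (m - 1) / 2)) : False := by
  obtain ⟨g1, g2, -⟩ := galSum_list l h1 h2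
  rw [hl] at g1 g2
  have h3 := EPT.card_le_gen b.simple b.ept hg (noAb b) g2 (hN ▸ card_dvd_aut b e) h60 g1.le
  have h4 := ord_ge b ha haF hm
  omega

theorem three_le_card (F : Type) [Field F] [Fintype F] (h : ((2 : ℕ) : F) ≠ 0) : 3 ≤ Fintype.card F := by
  have h1 : 2 ≤ Fintype.card F := Fintype.one_lt_card
  have h2 : Fintype.card F ≠ 2 := by
    intro h3
    apply h
    rw [← h3]
    exact FiniteField.cast_card_eq_zero F
  omega

theorem four_le_card (F : Type) [Field F] [Fintype F] (h : ((3 : ℕ) : F) ≠ 0) (hF : Fintype.card F ≠ 2) :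
    4 ≤ Fintype.card F := by
  have h1 : 2 ≤ Fintype.card F := Fintype.one_lt_card
  have h2 : Fintype.card F ≠ 3 := by
    intro h3
    apply h
    rw [← h3]
    exact FiniteField.cast_card_eq_zero F
  omega

end Cfsg.Agent.H414.EPV
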