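import Cfsg.Agent.H904.EPV.Engine
import Cfsg.Agent.H414.EPV.Kill

/-!
# S3499-V: the engine E3 (helper414, from the chain bound of helper904 / helper991 and UB1)

`dim_lt` : in the situation `Big`, `|A| ≤ 2 ^ L` and `L + 3 ≤ n` are contradictory. (`H904.EPV.dim_lt` has `L + 4`;
the gain comes from the nonabelian two point stabilisers: `|Q| ≤ |A| (1 + r |A| / 3)`.)
-/

set_option autoImplicit false

namespace Cfsg.Agent.H414.EPV

open Subgroup Cfsg Cfsg.Agent.H284 Cfsg.Agent.H419.EP Cfsg.Agent.H59.EP Cfsg.Agent.H991.EP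
open scoped MatrixGroups

variable {Q : Type} [Group Q] [Finite Q] {A : Subgroup Q} {Γ : Subgroup (MulAut Q)} {ι : Type} [Fintype ι]
    [DecidableEq ι] {F : Type} [Field F] [Fintype F] {S P : Subgroup (GL ι F)}

/-- **E1, sharp form** -/
theorem three_mul_card_le (b : Big A Γ S P) {L : ℕ} (hA : Nat.card A ≤ 2 ^ L) :
    3 * Nat.card Q ≤ 3 * 2 ^ L + 2 ^ (L * (L + 5) / 2) := by
  have h1 := Cfsg.Agent.H904.EPV.ncard_le_sb b.ept hA
    (Cfsg.Agent.H904.EPV.Om_le_of_le Nat.card_pos.ne' hA)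
  have h2 := h1.trans (Cfsg.Agent.H904.EPV.sb_two_le L)
  have h3 := Cfsg.Agent.H173.EP.ub1 b.simple b.ept (by norm_num) fun _ hx => EPT.six_le b.ept (noAb b) hx
  have h4 : 3 * (2 * (Nat.card A / 6)) ≤ 2 ^ L := by
    have := Nat.div_mul_le_self (Nat.card A) 6
    omega
  have hdiv : L * (L + 1) / 2 * 2 = L * (L + 1) := Nat.div_mul_cancel (Nat.even_mul_succ_self L).two_dvd
  have h5 : L * (L + 5) / 2 = L * (L + 1) / 2 + L + L := by
    have : L * (L + 5) = L * (L + 1) + 2 * (2 * L) := by ring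
    rw [this, Nat.add_mul_div_left _ _ (by norm_num)]
    omega
  rw [h5, ← A.card_mul_index]
  calc 3 * (Nat.card A * A.index) = Nat.card A * (3 * A.index) := by ring
    _ ≤ 2 ^ L * (3 * (1 + 2 ^ (L * (L + 1) / 2) * (2 * (Nat.card A / 6)))) :=
        Nat.mul_le_mul hA (Nat.mul_le_mul_left 3 (h3.trans
          (Nat.add_le_add_left (Nat.mul_le_mul_right _ h2) 1)))
    _ = 2 ^ L * (3 + 2 ^ (L * (L + 1) / 2) * (3 * (2 * (Nat.card A / 6)))) := by ring
    _ ≤ 2 ^ L * (3 + 2 ^ (L * (L + 1) / 2) * 2 ^ L) :=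
        Nat.mul_le_mul_left _ (Nat.add_le_add_left (Nat.mul_le_mul_left _ h4) 3)
    _ = 3 * 2 ^ L + 2 ^ (L * (L + 1) / 2 + L + L) := by rw [pow_add, pow_add]; ring

/-- **E3** -/
theorem dim_lt (b : Big A Γ S P) {L : ℕ} (hA : Nat.card A ≤ 2 ^ L) : Fintype.card ι < L + 3 := by
  by_contra hn
  push Not at hn
  have h1 := b.ord_two hn
  have h2 := three_mul_card_le b hA
  have h3 : (L + 3) * (L + 3 - 1) / 2 = L * (L + 5) / 2 + 3 := by
    have : (L + 3) * (L + 3 - 1) = L * (L + 5) + 2 * 3 := by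
      rw [show L + 3 - 1 = L + 2 by omega]
      ring
    rw [this, Nat.add_mul_div_left _ _ (by norm_num)]
  rw [h3, pow_add] at h1
  rcases Nat.eq_zero_or_pos L with h0 | h0
  · rw [h0, pow_zero] at hA
    exact b.ept.ne (Subgroup.card_eq_one.1 (le_antisymm hA Nat.card_pos))
  · have h4 : 2 ^ (L + 1) ≤ 2 ^ (L * (L + 5) / 2) := by
      apply Nat.pow_le_pow_right (by norm_num)
      have h5 : (L + 1) * 2 ≤ L * (L + 5) := by nlinarith
      omega
    rw [pow_succ] at h4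
    have h6 : 0 < 2 ^ L := by positivity
    omega

/-- **E3** in the form of the hypotheses of the rows (`H414.EPV.E3`, `H354.EPV.EThree`) -/
theorem e3 : ∀ {Q : Type} [Group Q] [Finite Q] {A : Subgroup Q} {Γ : Subgroup (MulAut Q)} {ι : Type}
    [Fintype ι] [DecidableEq ι] {F : Type} [Field F] [Fintype F] {S P : Subgroup (GL ι F)}, Big A Γ S P →
    ∀ L : ℕ, Nat.card A ≤ 2 ^ L → L + 3 ≤ Fintype.card ι → False :=
  fun b _ hA hn => absurd (dim_lt b hA) (not_lt.2 hn)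

end Cfsg.Agent.H414.EPV
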