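import Cfsg.Agent.H414.EPV.Kill
import Cfsg.Agent.H414.EPV.ToFin
import Cfsg.Agent.H414.EPV.AutPSU
import Cfsg.Agent.H433.EP.LSn
import Cfsg.Agent.H175.BdSU
import Cfsg.Agent.H95.LSx.Uni
import Cfsg.Agent.S2089

/-!
# S3499-V: the row `CrossPSU` (helper414)

`crossPSU_of` : `soc(A) ≅ PSU_d(q)` in cross characteristic, dimension at least 13.
-/

set_option autoImplicit false

namespace Cfsg.Agent.H414.EPV

open Subgroup Cfsg Cfsg.Agent.H284 Cfsg.Agent.H419.EP Cfsg.Agent.H59.EP Cfsg.Agent.H528.EP Cfsg.Agent.H912.Bd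
open scoped MatrixGroups

/-- the engine for large names: `|A| ≤ 2 ^ L` and `L + 3 ≤ n` -/
def E3 : Prop := ∀ {Q : Type} [Group Q] [Finite Q] {A : Subgroup Q} {Γ : Subgroup (MulAut Q)} {ι : Type}
    [Fintype ι] [DecidableEq ι] {F : Type} [Field F] [Fintype F] {S P : Subgroup (GL ι F)}, Big A Γ S P →
    ∀ L : ℕ, Nat.card A ≤ 2 ^ L → L + 3 ≤ Fintype.card ι → False

variable {Q : Type} [Group Q] [Finite Q] {A : Subgroup Q} {Γ : Subgroup (MulAut Q)} {ι : Type} [Fintype ι]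
    [DecidableEq ι] {F : Type} [Field F] [Fintype F] {S P : Subgroup (GL ι F)} {K : Type} [Field K] [Fintype K]

/-! ### degrees -/

theorem coprime_gcd_add {r q n : ℕ} (hr : r.Prime) (hq : r ∣ q) : (Nat.gcd n (q + 1)).Coprime r := by
  rw [Nat.coprime_comm, Nat.Prime.coprime_iff_not_dvd hr]
  intro h
  have h1 : r ∣ q + 1 := h.trans (Nat.gcd_dvd_right _ _)
  exact hr.one_lt.ne' (Nat.dvd_one.1 ((Nat.dvd_add_right hq).1 h1))

theorem deg_psu (b : Big A Γ S P) {d q p f : ℕ} (hK : Fintype.card K = q ^ 2) (hd : 3 ≤ d)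
    (h32 : ¬ (d = 3 ∧ q = 2)) (hexc : (d, q) ∉ ({(4, 2), (4, 3), (6, 2)} : Set (ℕ × ℕ))) (hp : p.Prime)
    [CharP K p] (hf : 1 ≤ f) (hq : q = p ^ f) (hpF : (p : F) ≠ 0) (e : socle P ≃* PSU d K q) :
    (q - 1) * q ^ (d - 2) ≤ Fintype.card ι := by
  have hpq : p ∣ q := by rw [hq]; exact dvd_pow_self p (by omega)
  exact Cfsg.Agent.H175.BdSU.bd_psu (F := F) hp hK hd hpF (MulEquiv.refl (PSU d K q)) _
    (pr_of_noR (noR_cyclic (S2089.result (F := K) d q hK hd h32 hexc) (coprime_gcd_add hp hpq)) P b.core.perfect e)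

theorem deg_psu_linear (b : Big A Γ S P) {d q p : ℕ} (hK : Fintype.card K = q ^ 2) (hd : 3 ≤ d)
    (hp : p.Prime) [CharP K p] (hpF : (p : F) ≠ 0) (hF : Fintype.card F = 2) (e : socle P ≃* PSU d K q) :
    (q - 1) * q ^ (d - 2) ≤ Fintype.card ι :=
  Cfsg.Agent.H175.BdSU.bd_psu (F := F) hp hK hd hpF (MulEquiv.refl (PSU d K q)) _
    (pr_of_linear p P b.core.perfect (no_scalars_two hF P) e)

theorem deg_psu_two (b : Big A Γ S P) {m : ℕ} (hK : Fintype.card K = 2 ^ 2) (hm : 3 ≤ m) (h2 : ((2 : ℕ) : F) ≠ 0)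
    (e : socle P ≃* PSU (m + 2) K 2) : 2 ^ m ≤ Fintype.card ι :=
  Cfsg.Agent.H433.EP.le_card_of_core (Cfsg.Agent.H95.LSx.Uni.ls_psu_two hK hm) h2 b.core ⟨e⟩

/-! ### the generic case -/

theorem le_two_pow_half {q : ℕ} (hq : 6 ≤ q) : q ≤ 2 ^ (q / 2) := by
  obtain ⟨k, hk⟩ : ∃ k, q / 2 = k + 3 := ⟨q / 2 - 3, by omega⟩
  have h1 : q ≤ 2 * (k + 3) + 1 := by omega
  rw [hk]
  refine h1.trans ?_
  clear h1 hk hq
  induction k with
  | zero => norm_num
  | succ k ih =>
    have e : k + 1 + 3 = (k + 3) + 1 := by omega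
    rw [e, pow_succ]
    have h2 : 1 ≤ 2 ^ (k + 3) := Nat.one_le_two_pow
    omega

theorem step {q t d : ℕ} (hq : 2 ≤ q) {d0 : ℕ} (h0 : t * d0 ^ 2 + 3 ≤ (q - 1) * q ^ (d0 - 2)) (h3 : 3 ≤ d0)
    (hd : d0 ≤ d) : t * d ^ 2 + 3 ≤ (q - 1) * q ^ (d - 2) := by
  induction d, hd using Nat.le_induction with
  | base => exact h0
  | succ d hd ih =>
    have h1 : 3 ≤ d := h3.trans hd
    have e : d + 1 - 2 = (d - 2) + 1 := by omega
    rw [e, pow_succ q, ← mul_assoc]
    have h2 : 2 * ((q - 1) * q ^ (d - 2)) ≤ (q - 1) * q ^ (d - 2) * q := by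
      rw [mul_comm 2]
      exact Nat.mul_le_mul_left _ hq
    have h4 : t * (d + 1) ^ 2 ≤ 2 * (t * d ^ 2) := by
      have : (d + 1) ^ 2 ≤ 2 * d ^ 2 := by nlinarith
      calc t * (d + 1) ^ 2 ≤ t * (2 * d ^ 2) := Nat.mul_le_mul_left _ this
        _ = 2 * (t * d ^ 2) := by ring
    omega

theorem gen_num {d q : ℕ} (hq : 2 ≤ q) (hd : 3 ≤ d)
    (h : ¬ (q = 2 ∧ d ≤ 8)) (h' : ¬ (q = 3 ∧ d ≤ 4)) (h'' : ¬ (q = 4 ∧ d = 3)) (h5 : ¬ (q = 5 ∧ d = 3)) :
    ∃ t, q ≤ 2 ^ t ∧ t * d ^ 2 + 3 ≤ (q - 1) * q ^ (d - 2) := by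
  rcases Nat.lt_or_ge q 6 with h6 | h6
  · interval_cases q
    · exact ⟨1, by norm_num, step (d0 := 9) (by norm_num) (by norm_num) (by norm_num) (by omega)⟩
    · exact ⟨2, by norm_num, step (d0 := 5) (by norm_num) (by norm_num) (by norm_num) (by omega)⟩
    · exact ⟨2, by norm_num, step (d0 := 4) (by norm_num) (by norm_num) (by norm_num) (by omega)⟩
    · exact ⟨3, by norm_num, step (d0 := 4) (by norm_num) (by norm_num) (by norm_num) (by omega)⟩
  · refine ⟨q / 2, le_two_pow_half h6, step (d0 := 3) hq ?_ (by norm_num) hd⟩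
    obtain ⟨k, rfl⟩ : ∃ k, q = k + 6 := ⟨q - 6, by omega⟩
    have h1 : (k + 6) / 2 ≤ k + 3 := by omega
    have h2 : 2 * ((k + 6) / 2) ≤ k + 6 := by omega
    have e1 : k + 6 - 1 = k + 5 := by omega
    have e2 : (3 : ℕ) - 2 = 1 := rfl
    rw [e1, e2, pow_one]
    nlinarith

theorem generic (hE : E3) (b : Big A Γ S P) {d q p f : ℕ} (hK : Fintype.card K = q ^ 2) (hd : 3 ≤ d)
    (hp : p.Prime) [CharP K p] (hf : 1 ≤ f) (hq : q = p ^ f) (hpF : (p : F) ≠ 0) (e : socle P ≃* PSU d K q)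
    (h : ¬ (q = 2 ∧ d ≤ 8)) (h' : ¬ (q = 3 ∧ d ≤ 4)) (h'' : ¬ (q = 4 ∧ d = 3)) (h5 : ¬ (q = 5 ∧ d = 3)) : False := by
  have hq2 := two_le_q hK
  have h32 : ¬ (d = 3 ∧ q = 2) := by omega
  obtain ⟨t, ht, ht2⟩ := gen_num hq2 hd h h' h'' h5
  have hdeg := deg_psu b hK hd h32 (by
    simp only [Set.mem_insert_iff, Set.mem_singleton_iff, Prod.mk.injEq]
    omega) hp hf hq hpF e
  refine hE b (t * d ^ 2) ?_ (ht2.trans hdeg)
  have h1 := (b.hasSoc' e).card_le (L := PSU d K q)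
  refine h1.trans ((card_mulAut_psu_le hK hd h32).trans ?_)
  rw [pow_mul]
  exact Nat.pow_le_pow_left ht _

/-! ### the row -/

/-- **The row `CrossPSU`.** -/
theorem crossPSU_of (hg : TwoGen.{0}) (hE : E3) : CrossPSU := by
  intro Q _ _ A Γ ι _ _ F _ _ S P b K _ _ d q hK hd h32 hc ⟨e⟩
  obtain ⟨p, f, hp, hCp, hf, hq⟩ := q_pow hK
  have hpF : (p : F) ≠ 0 := by
    intro h0
    have h1 : ringChar F ∣ p := ringChar.dvd h0
    rcases (Nat.dvd_prime hp).1 h1 with h2 | h2
    · exact CharP.ringChar_ne_one h2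
    · exact hc (h2.trans (ringChar.eq K p).symm)
  by_cases c2 : q = 2 ∧ d ≤ 8
  · obtain ⟨rfl, hd8⟩ := c2
    have hp2 : p = 2 := by
      have h1 : p ∣ 2 := by rw [hq]; exact dvd_pow_self p (by omega)
      exact (Nat.prime_dvd_prime_iff_eq hp Nat.prime_two).1 h1
    subst hp2
    have hF3 := three_le_card F hpF
    have h13 := b.thirteen
    interval_cases d
    · exact h32 ⟨rfl, rfl⟩
    · exact kill b hg e (aut42 hK) [(2, 7), (3, 4), (5, 1)] (by decide +kernel) (by decide +kernel)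
        (by decide +kernel) (by norm_num) (a := 3) (m := 13) (by norm_num) hF3 h13 (by decide +kernel)
    · exact kill b hg e (aut52 hK) [(2, 11), (3, 5), (5, 1), (11, 1)] (by decide +kernel) (by decide +kernel)
        (by decide +kernel) (by norm_num) (a := 3) (m := 13) (by norm_num) hF3 h13 (by decide +kernel)
    · have hn := deg_psu_two b (m := 4) hK (by norm_num) hpF e
      exact kill b hg e (aut62 hK) [(2, 16), (3, 7), (5, 1), (7, 1), (11, 1)] (by decide +kernel) (by decide +kernel)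
        (by decide +kernel) (by norm_num) (a := 3) (m := 16) (by norm_num) hF3 hn (by decide +kernel)
    · have hn := deg_psu_two b (m := 5) hK (by norm_num) hpF e
      exact kill b hg e (aut72 hK) [(2, 22), (3, 8), (5, 1), (7, 1), (11, 1), (43, 1)] (by decide +kernel)
        (by decide +kernel) (by decide +kernel) (by norm_num) (a := 3) (m := 32) (by norm_num) hF3 hn
        (by decide +kernel)
    · have hn := deg_psu_two b (m := 6) hK (by norm_num) hpF e
      exact kill b hg e (aut82 hK) [(2, 29), (3, 9), (5, 2), (7, 1), (11, 1), (17, 1), (43, 1)] (by decide +kernel)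
        (by decide +kernel) (by decide +kernel) (by norm_num) (a := 3) (m := 64) (by norm_num) hF3 hn
        (by decide +kernel)
  by_cases c3 : q = 3 ∧ d ≤ 4
  · obtain ⟨rfl, hd4⟩ := c3
    have hp3 : p = 3 := by
      have h1 : p ∣ 3 := by rw [hq]; exact dvd_pow_self p (by omega)
      exact (Nat.prime_dvd_prime_iff_eq hp Nat.prime_three).1 h1
    subst hp3
    have h13 := b.thirteen
    have hF2 : 2 ≤ Fintype.card F := Fintype.one_lt_card
    interval_cases d
    · exact kill b hg e (aut33 hK) [(2, 6), (3, 3), (7, 1)] (by decide +kernel) (by decide +kernel)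
        (by decide +kernel) (by norm_num) (a := 2) (m := 13) (by norm_num) hF2 h13 (by decide +kernel)
    · by_cases hF : Fintype.card F = 2
      · have hn := deg_psu_linear b hK hd hp hpF hF e
        exact kill b hg e (aut43 hK) [(2, 10), (3, 6), (5, 1), (7, 1)] (by decide +kernel) (by decide +kernel)
          (by decide +kernel) (by norm_num) (a := 2) (m := 18) (by norm_num) hF2 hn (by decide +kernel)
      · exact kill b hg e (aut43 hK) [(2, 10), (3, 6), (5, 1), (7, 1)] (by decide +kernel) (by decide +kernel)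
          (by decide +kernel) (by norm_num) (a := 4) (m := 13) (by norm_num) (four_le_card F hpF hF) h13
          (by decide +kernel)
  by_cases c4 : q = 4 ∧ d = 3
  · obtain ⟨rfl, rfl⟩ := c4
    have hp2 : p = 2 := by
      have h1 : p ∣ 2 ^ 2 := by
        have : p ∣ 4 := by rw [hq]; exact dvd_pow_self p (by omega)
        exact this
      exact (Nat.prime_dvd_prime_iff_eq hp Nat.prime_two).1 (hp.dvd_of_dvd_pow h1)
    subst hp2
    exact kill b hg e (aut34 hK) [(2, 8), (3, 1), (5, 2), (13, 1)] (by decide +kernel) (by decide +kernel)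
        (by decide +kernel) (by norm_num) (a := 3) (m := 13) (by norm_num) (three_le_card F hpF) b.thirteen
        (by decide +kernel)
  by_cases c5 : q = 5 ∧ d = 3
  · obtain ⟨rfl, rfl⟩ := c5
    have hn := deg_psu b hK hd h32 (by
      simp only [Set.mem_insert_iff, Set.mem_singleton_iff, Prod.mk.injEq]
      omega) hp hf hq hpF e
    exact kill b hg e (aut35 hK) [(2, 5), (3, 3), (5, 3), (7, 1)] (by decide +kernel) (by decide +kernel)
        (by decide +kernel) (by norm_num) (a := 2) (m := 20) (by norm_num) b.two_le hn (by decide +kernel)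
  exact generic hE b hK hd hp hf hq hpF e c2 c3 c4 c5

end Cfsg.Agent.H414.EPV
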