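import Cfsg.Agent.H414.EPV.Uni
import Cfsg.Agent.H414.EPV.EThree

/-!
# S3499-V: the row `CrossPSU`, final form (helper414)
-/

set_option autoImplicit false

namespace Cfsg.Agent.H414.EPV

open Cfsg.Agent.H419.EP Cfsg.Agent.H59.EP

/-- **The row `CrossPSU`**, modulo `TwoGen` (`S3948`) only. -/
theorem crossPSU (hg : TwoGen.{0}) : CrossPSU := crossPSU_of hg e3

end Cfsg.Agent.H414.EPV
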